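import Cfsg.Agent.H235.TitsRow
import Cfsg.Agent.H369.Ti.Facts

/-!
# S5745, Tits group: element orders and centralizers (helper407)

`T := TitsGroup`, `|T| = 17971200 = 2¹¹·3³·5²·13`.
* `card_tits`; `cent_three = 108`, `cent_five = 50`, `cent_thirteen = 13`; `conj_three`, `conj_five` : one class;
* `ord_three` : `3 ∣ orderOf g → orderOf g ∣ 12`, `ord_five` : `5 ∣ orderOf g → orderOf g ∣ 10`,
  `ord_thirteen` : `13 ∣ orderOf g → orderOf g = 13`, `ne_fifteen`.
-/

set_option autoImplicit false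

namespace Cfsg.Agent.H407.EPT

open Subgroup Cfsg

theorem iso_refl : Lie.IsoTits Lie.TitsGroup := ⟨MulEquiv.refl _⟩

theorem card_tits : Nat.card Lie.TitsGroup = 17971200 := H369.Ti.Facts.fs.card

instance finite_tits : Finite Lie.TitsGroup := Nat.finite_of_card_ne_zero (by rw [card_tits]; norm_num)

theorem facts : H235.TitsIdx.Facts Lie.TitsGroup := H235.TitsRow.facts iso_refl

theorem out : CpAutTits.Row.Out Lie.TitsGroup := CpAutTits.Row.out iso_refl

theorem card_cent_congr {G : Type*} [Group G] {x y : G} (h : IsConj x y) :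
    Nat.card (centralizer ({x} : Set G)) = Nat.card (centralizer ({y} : Set G)) := by
  obtain ⟨g, rfl⟩ := isConj_iff.1 h
  refine Nat.card_congr ⟨fun c => ⟨g * c.1 * g⁻¹, ?_⟩, fun c => ⟨g⁻¹ * c.1 * g, ?_⟩, fun c => ?_, fun c => ?_⟩
  · have h1 := mem_centralizer_singleton_iff.1 c.2
    rw [mem_centralizer_singleton_iff]
    calc g * c.1 * g⁻¹ * (g * x * g⁻¹) = g * (c.1 * x) * g⁻¹ := by group
      _ = g * (x * c.1) * g⁻¹ := by rw [h1]
      _ = _ := by group
  · have h1 := mem_centralizer_singleton_iff.1 c.2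
    rw [mem_centralizer_singleton_iff]
    calc g⁻¹ * c.1 * g * x = g⁻¹ * (c.1 * (g * x * g⁻¹)) * g := by group
      _ = g⁻¹ * ((g * x * g⁻¹) * c.1) * g := by rw [h1]
      _ = _ := by group
  · apply Subtype.ext
    show g⁻¹ * (g * c.1 * g⁻¹) * g = c.1
    group
  · apply Subtype.ext
    show g * (g⁻¹ * c.1 * g) * g⁻¹ = c.1
    group

theorem ne_one_of_order {G : Type*} [Group G] {x : G} {n : ℕ} (h : orderOf x = n) (hn : n ≠ 1) : x ≠ 1 := by
  rintro rfl
  exact hn (by rw [← h, orderOf_one])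

theorem conj_t (D : H87.TitsAbs.Dat Lie.TitsGroup) {x : Lie.TitsGroup} (hx : orderOf x = 3) : IsConj x D.t :=
  H745.RvTits.isConj_t D out (y := x) (b := 1) (by
    have h := pow_orderOf_eq_one x
    rw [hx] at h
    exact h) (ne_one_of_order hx (by norm_num))

/-- one class of elements of order 3 -/
theorem conj_three {x y : Lie.TitsGroup} (hx : orderOf x = 3) (hy : orderOf y = 3) : IsConj x y := by
  obtain ⟨D⟩ := facts.dat
  exact (conj_t D hx).trans (conj_t D hy).symm

/-- one class of elements of order 5 -/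
theorem conj_five {x y : Lie.TitsGroup} (hx : orderOf x = 5) (hy : orderOf y = 5) : IsConj x y := facts.one x y hx hy

theorem cent_three {x : Lie.TitsGroup} (hx : orderOf x = 3) : Nat.card (centralizer ({x} : Set Lie.TitsGroup)) = 108 := by
  obtain ⟨D⟩ := facts.dat
  rw [card_cent_congr (conj_t D hx)]
  exact H745.RvTits.card_cent_t D out

theorem cent_five {x : Lie.TitsGroup} (hx : orderOf x = 5) : Nat.card (centralizer ({x} : Set Lie.TitsGroup)) = 50 :=
  facts.cent x hx

theorem ord_three {g : Lie.TitsGroup} (h : 3 ∣ orderOf g) : orderOf g ∣ 12 := H369.Ti.Facts.fs.three g h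

theorem ord_five {g : Lie.TitsGroup} (h : 5 ∣ orderOf g) : orderOf g ∣ 10 := H369.Ti.Facts.fs.five g h

theorem ne_fifteen (g : Lie.TitsGroup) : orderOf g ≠ 15 := by
  intro h
  have h1 := ord_three (g := g) (by rw [h]; norm_num)
  rw [h] at h1
  norm_num at h1

/-- subgroups of order 13 are self-centralising -/
theorem cent_thirteen {x : Lie.TitsGroup} (hx : orderOf x = 13) :
    Nat.card (centralizer ({x} : Set Lie.TitsGroup)) = 13 := by
  obtain ⟨D⟩ := facts.dat
  have h13 := H369.Ti.Facts.card_x D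
  have hx' : orderOf D.x = 13 := by
    have : Fact (Nat.Prime 13) := ⟨by norm_num⟩
    exact orderOf_eq_prime D.x13 D.x1
  have hZ : Nat.card (zpowers D.x) = 13 := by rw [Nat.card_zpowers, hx']
  have hidx : ¬ 13 ∣ (zpowers D.x).index := by
    intro hd
    have h2 := (zpowers D.x).card_mul_index
    rw [hZ, card_tits] at h2
    obtain ⟨c, hc⟩ := hd
    omega
  obtain ⟨c, hcm⟩ := Cfsg.Agent.H20.FrobTits.exists_conj_mem (a := 1) (by norm_num : Nat.Prime 13)
    (R := zpowers D.x) (by rw [hZ]; norm_num) hidx (y := x) (b := 1) (by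
      have h3 := pow_orderOf_eq_one x
      rw [hx] at h3
      exact h3)
  have hco : orderOf (c * x * c⁻¹) = 13 := by
    have h4 : c * x * c⁻¹ = MulAut.conj c x := rfl
    rw [h4, MulEquiv.orderOf_eq, hx]
  have h2 : zpowers (c * x * c⁻¹) = zpowers D.x := by
    apply eq_of_le_of_card_ge
    · rw [zpowers_le]; exact hcm
    · rw [Nat.card_zpowers, Nat.card_zpowers, hx', hco]
  have h3 : (centralizer ({c * x * c⁻¹} : Set Lie.TitsGroup)) = centralizer ({D.x} : Set Lie.TitsGroup) := by
    have h5 : ∀ a : Lie.TitsGroup, centralizer ({a} : Set Lie.TitsGroup) = centralizer (zpowers a : Set Lie.TitsGroup) := by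
      intro a
      rw [zpowers_eq_closure, centralizer_closure]
    rw [h5, h5 D.x, h2]
  rw [card_cent_congr (isConj_iff.2 ⟨c, rfl⟩ : IsConj x (c * x * c⁻¹)), h3, h13]

theorem ord_thirteen {g : Lie.TitsGroup} (h : 13 ∣ orderOf g) : orderOf g = 13 := by
  obtain ⟨k, hk⟩ := Cfsg.Agent.H455.Isolated.exists_pow_orderOf h
  have h1 := H369.Ti.Facts.orderOf_dvd_cent g k
  rw [cent_thirteen hk] at h1
  exact Nat.dvd_antisymm h1 h

end Cfsg.Agent.H407.EPT
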